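import Cfsg.Agent.Lib.Twisted.E6Inv.Fast

/-!
# Involutions of `²E₆(q)`, `q` even: a tree of conjugations, as data
-/

set_option autoImplicit false

namespace Cfsg.Agent.Lib.Twisted.E6Inv

open Cfsg.Lie Cfsg.Agent.Lib.Twisted.Coll

/-- The pairs of the graph automorphism. -/
def barT : List (ℕ × ℕ) := [(36, 56), (56, 36), (42, 37), (37, 42), (38, 57), (57, 38), (40, 43), (43, 40), (41, 58), (58, 41),
  (50, 48), (48, 50), (49, 61), (61, 49), (45, 59), (59, 45), (52, 62), (62, 52), (64, 54), (54, 64), (55, 67), (67, 55),
  (68, 66), (66, 68)]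

/-- The graph automorphism on positive roots. -/
def bar (r : ℕ) : ℕ := (barT.lookup r).getD r

/-- The normal form of a word. -/
def NFW (w : Wd) : Wd := nfF w

/-- The keys of a normal form. -/
def keysOK (N : Wd) : Bool := N.map Prod.fst == Lr

/-- Monomials that do not vanish. -/
def flt (A : List ℕ) (p : Pol) : Pol := p.filter fun m => m.all fun v => decide (100 ≤ v) || A.contains v

/-- A coordinate of a word, with the vanishing coordinates removed. -/
def lk (A : List ℕ) (N : Wd) (z : ℕ) : Pol := flt A (look N z)

/-- The coordinates that may be nonzero. -/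
def nextA (A : List ℕ) (N : Wd) (ex : List ℕ) : List ℕ := Lr.filter fun z => !(lk A N z).isEmpty && !ex.contains z

/-- The nonzero coordinates are unchanged. -/
def nzOK (A : List ℕ) (N : Wd) (NZ : List ℕ) : Bool := NZ.all fun n => lk A N n == [[n]]

/-- A short root element. -/
def wS (s : ℕ) : Wd := [(s, [[100]]), (bar s, [[101]])]

/-- A long root element. -/
def wL (s : ℕ) : Wd := [(s, [[100]])]

/-- Remove an orbit from a list. -/
def rm (k : ℕ) (l : List ℕ) : List ℕ := l.filter fun x => !(x == k) && !(x == bar k)

/-- The simple root lists. -/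
def JsL : List (List ℕ) := [[1], [3], [0, 5], [2, 4]]

/-- The image of a root under a Weyl word. -/
def wJ (J : List ℕ) (r : ℕ) : ℕ := J.foldr chevE6.reflectRoot r

/-- The Weyl conjugate of the active word. -/
def weylW (J A : List ℕ) : Wd := NFW ((Lr.filter fun r => A.contains r).map fun r => (wJ J r, [[r]]))

/-- The lists of coordinates of the representatives. -/
def repL : ℕ → List ℕ
  | 0 => [39]
  | 1 => [36, 56]
  | _ => [36, 56, 39]

/-- The tree. -/
inductive Nd where
  | triv
  | leaf (i : ℕ)
  | split (k : ℕ) (z n : Nd)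
  | sqz (sig k : ℕ) (c : Nd)
  | cL (r s k : ℕ) (c : Nd)
  | cS (r s k : ℕ) (c : Nd)
  | cT (r s k : ℕ) (c : Nd)
  | cF (r s k sig : ℕ) (c : Nd)
  | cN (r s k : ℕ) (c : Nd)
  | cK (r r2 s k z0 : ℕ) (c : Nd)
  | weyl (i : ℕ) (c : Nd)

section
variable (Ft : List (ℕ × Wd)) (Sq : Wd)

/-- The normal form of the conjugate by a root element, from a table. -/
def fy (s : ℕ) : Wd := (Ft.lookup s).getD []

/-- The roots of the table. -/
def inFt (s : ℕ) : Bool := (Ft.lookup s).isSome

/-- The check of the tree. -/
def chk : Nd → List ℕ → List ℕ → Bool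
  | .triv, A, _ => A.isEmpty
  | .leaf i, A, NZ => decide (i < 3) && (Lr.filter fun r => A.contains r) == repL i && (repL i).all fun r => NZ.contains r
  | .split k z n, A, NZ => Lr.contains k && chk z (rm k A) NZ && chk n A (k :: bar k :: NZ)
  | .sqz sig k c, A, NZ =>
      Lr.contains k &&
      (match lk A Sq sig with
        | [m] => m.contains k && m.all fun v => v == k || NZ.contains v
        | _ => false) && chk c (rm k A) NZ
  | .cL r s k c, A, NZ =>
      let N := fy Ft s
      inFt Ft s && NZ.contains r && Lr.contains k && bar s == s && bar r == r && bar k == k &&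
      lk A N k == normP [[k], [r, 100]] && nzOK A N (rm k NZ) && chk c (nextA A N [k, bar k]) (rm k NZ)
  | .cS r s k c, A, NZ =>
      let N := fy Ft s
      inFt Ft s && NZ.contains r && Lr.contains k && !(bar s == s) &&
      lk A N k == normP [[k], [r, 100]] && nzOK A N (rm k NZ) && chk c (nextA A N [k, bar k]) (rm k NZ)
  | .cT r s k c, A, NZ =>
      let N := fy Ft s
      inFt Ft s && NZ.contains r && Lr.contains k && bar k == k && !(bar s == s) &&
      lk A N k == normP [[k], [r, 100], [bar r, 101]] && nzOK A N (rm k NZ) && chk c (nextA A N [k, bar k]) (rm k NZ)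
  | .cF r s k sig c, A, NZ =>
      let N := fy Ft s
      inFt Ft s && NZ.contains r && Lr.contains k && bar s == s &&
      lk A N k == normP [[k], [r, 100]] &&
      lk A Sq sig == normP [[bar r, k], [r, bar k]] &&
      nzOK A N (rm k NZ) && chk c (nextA A N [k, bar k]) (rm k NZ)
  | .cN r s k c, A, NZ =>
      let N := fy Ft s
      inFt Ft s && NZ.contains r && Lr.contains k && bar r == r && bar k == k && !(bar s == s) &&
      lk A N k == normP [[k], [r, 100, 101]] && nzOK A N (rm k NZ) && chk c (nextA A N [k, bar k]) (rm k NZ)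
  | .cK r r2 s k z0 c, A, NZ =>
      let N := fy Ft s
      inFt Ft s && NZ.contains r && NZ.contains r2 && Lr.contains k && bar r == r && bar k == k && !(bar s == s) &&
      lk A N k == normP [[k], [r, 100, 101]] &&
      lk A N z0 == normP [[r2, 101], [bar r2, 100]] &&
      nzOK A N (rm k NZ) && chk c (nextA A N [k, bar k, z0]) (rm k NZ)
  | .weyl i c, A, NZ =>
      let J := JsL.getD i []
      let N := weylW J A
      decide (i < 4) && keysOK N && (NZ.all fun n => Lr.contains (wJ J n) && look N (wJ J n) == [[n]]) &&
        chk c (Lr.filter fun z => !(look N z).isEmpty) (NZ.map (wJ J))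

end

end Cfsg.Agent.Lib.Twisted.E6Inv
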