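import Cfsg.Agent.Lib.Twisted.E6Inv.Step
import Cfsg.Agent.Lib.Twisted.E6Order
import Cfsg.Agent.Lib.Invol.BitRank

/-!
# Involutions of `²E₆(q)`, `q` even: the count
-/

set_option autoImplicit false
set_option maxRecDepth 1000000
set_option linter.unusedSectionVars false

namespace Cfsg.Agent.Lib.Twisted.E6Inv

open Cfsg.Lie Cfsg.Agent.Lib.Chevalley.Reflect
open Cfsg.Agent.Lib.Chevalley.Tbl.E6 (cols colOK sys comm)
open Cfsg.Agent.Lib.ChevBN.Elem Cfsg.Agent.Lib.ChevBN.Table Cfsg.Agent.Lib.ChevBN.Opp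
open Cfsg.Agent.Lib.ChevBN.FastData (tbl_chevE6)
open Cfsg.Agent.Lib.ChevBN.Collect (exists_ordered)
open Cfsg.Agent.Lib.Twisted.Coll Cfsg.Agent.Lib.Twisted.E6
open Cfsg.Agent.Lib.Invol.BitRank Cfsg.Agent.Lib.Invol.Walk

set_option quotPrecheck false in
/-- The root elements. -/
local notation "Xr" => X (sys (F := _)).toAddRel

set_option quotPrecheck false in
/-- Normal elements. -/
local notation "uu" => uL (sys (F := _)).toAddRel Lr

/-- An element of trace one. -/
theorem exists_trace_one {K : Type*} [Field K] [Fintype K] {q : ℕ} {φ : K →+* K} (hφ : ∀ t, φ t = t ^ q)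
    (hφ2 : ∀ t, φ (φ t) = t) (hq : 2 ≤ q) (hK : Fintype.card K = q ^ 2) : ∃ θ : K, θ + φ θ = 1 := by
  classical
  have key : ∃ x : K, x + φ x ≠ 0 := by
    by_contra hall
    push Not at hall
    let P : Polynomial K := Polynomial.X + Polynomial.X ^ q
    have hP0 : P ≠ 0 := by
      intro h0
      have h1 := congrArg (fun p => Polynomial.coeff p q) h0
      simp only [P, Polynomial.coeff_add, Polynomial.coeff_X, Polynomial.coeff_X_pow, Polynomial.coeff_zero] at h1
      rw [if_neg (by omega)] at h1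
      simp at h1
    have hdeg : P.natDegree ≤ q := by
      refine Polynomial.natDegree_add_le_of_degree_le ?_ ?_
      · exact Polynomial.natDegree_X_le.trans (by omega)
      · rw [Polynomial.natDegree_X_pow]
    have hroot : ∀ x : K, x ∈ P.roots := by
      intro x
      rw [Polynomial.mem_roots hP0, Polynomial.IsRoot, Polynomial.eval_add, Polynomial.eval_pow, Polynomial.eval_X]
      have := hall x
      rw [hφ] at this
      exact this
    have h1 : (Finset.univ : Finset K).card ≤ P.natDegree := by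
      apply Polynomial.card_le_degree_of_subset_roots
      intro x _
      exact hroot x
    rw [Finset.card_univ, hK] at h1
    have h2 : q ^ 2 ≤ q := h1.trans hdeg
    nlinarith
  obtain ⟨x, hx⟩ := key
  refine ⟨x / (x + φ x), ?_⟩
  have hf : φ (x + φ x) = x + φ x := by
    simp only [map_add, hφ2]
    ring
  simp only [map_div₀, hf]
  field_simp

/-- An element of prime order is conjugate into a given Sylow subgroup. -/
theorem exists_conj_sylow {G : Type*} [Group G] [Finite G] {p : ℕ} [Fact p.Prime] {U : Subgroup G}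
    (hS : ∃ P : Sylow p G, (P : Subgroup G) = U) {g : G} (hg : orderOf g = p) : ∃ y : G, y * g * y⁻¹ ∈ U := by
  classical
  obtain ⟨P, rfl⟩ := hS
  have hpg : IsPGroup p (Subgroup.zpowers g) := by
    apply IsPGroup.of_card (n := 1)
    rw [Nat.card_zpowers, hg, pow_one]
  obtain ⟨Q, hQ⟩ := hpg.exists_le_sylow
  have hg' : g ∈ (Q : Subgroup G) := hQ (Subgroup.mem_zpowers g)
  obtain ⟨x, hx⟩ := MulAction.exists_smul_eq G Q P
  refine ⟨x, ?_⟩
  rw [← hx, Sylow.smul_def, Sylow.pointwise_smul_def]
  exact Subgroup.smul_mem_pointwise_smul _ _ _ hg'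

/-- A subgroup whose order is the full power of the prime is a Sylow subgroup. -/
theorem sylow_of_card {G : Type*} [Group G] [Finite G] {p : ℕ} [Fact p.Prime] (U : Subgroup G) {m r : ℕ}
    (h1 : Nat.card U = p ^ m) (h2 : Nat.card G = p ^ m * r) (h3 : ¬ p ∣ r) :
    ∃ P : Sylow p G, (P : Subgroup G) = U := by
  have hp : p.Prime := Fact.out
  have hr : r ≠ 0 := fun h => h3 (h ▸ dvd_zero p)
  have hfac : (Nat.card G).factorization p = m := by
    rw [h2, Nat.factorization_mul (pow_ne_zero _ hp.ne_zero) hr, Nat.factorization_pow, hp.factorization]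
    simp [Nat.factorization_eq_zero_of_not_dvd h3]
  exact ⟨Sylow.ofCard U (by rw [hfac, h1]), rfl⟩

variable {K : Type*} [Field K] [CharP K 2]

/-- Elements of the unipotent group are normal elements. -/
theorem exists_uu {g : GL chevE6.Idx K} (hg : g ∈ chevE6.posUnipotent K) : ∃ t : ℕ → K, g = uu t := by
  have hU := Cfsg.Agent.Lib.ChevBN.Stmts.posUnipotent_eq_list (sys (F := K)) tbl_chevE6
  have h1 := exists_ordered tbl_chevE6 (hc (K := K)) chevE6.posRoots
    (List.Pairwise.filter _ List.pairwise_lt_range) (fun r hr => Cfsg.Agent.Lib.ChevBN.Stmts.mem_posRoots.1 hr)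
    (fun r hr s hs hrs c hc' => Cfsg.Agent.Lib.ChevBN.Stmts.mem_posRoots.2
      (tbl_chevE6.comm_keys r s (Cfsg.Agent.Lib.ChevBN.Stmts.mem_posRoots.1 hr)
        (Cfsg.Agent.Lib.ChevBN.Stmts.mem_posRoots.1 hs) hrs.ne c hc').2.2.1) g (hU ▸ hg)
  obtain ⟨t, rfl⟩ := h1
  refine ⟨ofW t (nfF (idW chevE6.posRoots)), ?_⟩
  rw [← W_eq_uL _ all_keys Lr_nodup, W_nfF _ hc, evW_idW]

/-- The rank certificate of the class number 0. -/
def cert0 : List (ℕ × ℕ × ℕ) :=
  [(2, 35184372088832, 45), (128, 256, 8), (4096, 16384, 14), (8192, 32768, 15), (524288, 1048576, 20), 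
  (8388608, 33554432, 25), (16777216, 67108864, 26), (1073741824, 2147483648, 31), 
  (17179869184, 34359738368, 35), (68719476736, 549755813888, 39), (137438953472, 1099511627776, 40), 
  (274877906946, 8, 3), (8796093022208, 70368744177664, 46), (17592186044416, 140737488355328, 47), 
  (281474976710656, 562949953421312, 49), (4503599627370496, 9007199254740992, 53), 
  (144115188075855872, 576460752303423488, 59), (288230376151711744, 1152921504606846976, 60), 
  (9223372036854775808, 18446744073709551616, 64), (295147905179352825856, 1180591620717411303424, 70), 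
  (590295810358705651712, 2361183241434822606848, 71), (37778931862957161709568, 75557863725914323419136, 76)]

/-- The rank certificate of the class number 1. -/
def cert1 : List (ℕ × ℕ × ℕ) :=
  [(4, 4611686018427387904, 62), (16, 4398046511104, 42), (512, 1024, 10), (2048, 4194304, 22), 
  (4096, 25174016, 13), (8192, 16777216, 24), (16384, 100696064, 15), (32768, 67108864, 26), 
  (65536, 134217728, 27), (131072, 12885164032, 18), (262144, 8589934592, 33), (524288, 17179869184, 34), 
  (1048576, 34359738368, 35), (2097156, 1, 0), (268435456, 536870912, 29), (68719476736, 137438953472, 37), 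
  (549755813888, 1099511627776, 40), (2199023255568, 32, 5), (8796093022208, 17592186044416, 44), 
  (70368744177664, 140737488355328, 47), (281474976710656, 9223372036854775808, 63), 
  (562949953421312, 18446744073709551616, 64), (1125899906842624, 110682716242070994944, 51), 
  (2251799813685248, 73786976294838206464, 66), (18014398509481984, 36028797018963968, 55), 
  (72057594037927936, 147573952589676412928, 67), (144115188075855872, 885731945914210189312, 58), 
  (288230376151711744, 590295810358705651712, 69), (576460752303423488, 3542927783656840757248, 60), 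
  (1152921504606846976, 2361183241434822606848, 71), (2305843009213693952, 4722366482869645213696, 72), 
  (9444732965739290427392, 18889465931478580854784, 74)]

/-- The rank certificate of the class number 2. -/
def cert2 : List (ℕ × ℕ × ℕ) :=
  [(2, 35184372088832, 45), (6, 4611686018427387904, 62), (18, 4398046511104, 42), (128, 256, 8), 
  (512, 1024, 10), (2048, 4194304, 22), (4096, 125886464, 13), (8192, 83918848, 15), (24576, 50331648, 24), 
  (32768, 67108864, 26), (65536, 134217728, 27), (131072, 12885164032, 18), (262144, 8589934592, 33), 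
  (524288, 51540656128, 20), (1048576, 34359738368, 35), (2097158, 1, 0), (268435456, 536870912, 29), 
  (1073741824, 2147483648, 31), (68719476736, 1786706395136, 37), (137438953472, 1099511627776, 40), 
  (274877906946, 8, 3), (2199023255570, 32, 5), (8796093022208, 228698418577408, 44), 
  (17592186044416, 140737488355328, 47), (281474976710656, 27670679060517748736, 49), 
  (562949953421312, 18446744073709551616, 64), (1125899906842624, 110682716242070994944, 51), 
  (2251799813685248, 73786976294838206464, 66), (4503599627370496, 9007199254740992, 53), 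
  (18014398509481984, 36028797018963968, 55), (72057594037927936, 147573952589676412928, 67), 
  (144115188075855872, 4429236190323354370048, 58), (288230376151711744, 2952631973298135105536, 60), 
  (864691128455135232, 1770887431076116955136, 69), (1152921504606846976, 2361183241434822606848, 71), 
  (2305843009213693952, 4722366482869645213696, 72), (9444732965739290427392, 18889465931478580854784, 74), 
  (37778931862957161709568, 75557863725914323419136, 76)]

theorem chk0 : chkRank chevE6 [39] cert0 = true := by decide +kernel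
theorem chk1 : chkRank chevE6 [36, 56] cert1 = true := by decide +kernel
theorem chk2 : chkRank chevE6 [36, 56, 39] cert2 = true := by decide +kernel

theorem Rp0_eq : Rp 0 = Tr (sys (F := K)).toAddRel [39] := by
  simp [Cfsg.Agent.Lib.Invol.Walk.Tr, Rp]

theorem Rp1_eq : Rp 1 = Tr (sys (F := K)).toAddRel [36, 56] := by
  simp [Cfsg.Agent.Lib.Invol.Walk.Tr, Rp]

theorem Rp2_eq : Rp 2 = Tr (sys (F := K)).toAddRel [36, 56, 39] := by
  simp [Cfsg.Agent.Lib.Invol.Walk.Tr, Rp, mul_assoc]

theorem rank0 : (((Rp 0 : GL chevE6.Idx K) : Matrix chevE6.Idx chevE6.Idx K) - 1).rank = 22 := by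
  rw [Rp0_eq, rank_eq _ chk0]
  rfl

theorem rank1 : (((Rp 1 : GL chevE6.Idx K) : Matrix chevE6.Idx chevE6.Idx K) - 1).rank = 32 := by
  rw [Rp1_eq, rank_eq _ chk1]
  rfl

theorem rank2 : (((Rp 2 : GL chevE6.Idx K) : Matrix chevE6.Idx chevE6.Idx K) - 1).rank = 38 := by
  rw [Rp2_eq, rank_eq _ chk2]
  rfl

theorem X2 (r : ℕ) : Xr r (1 : K) * Xr r 1 = 1 := by
  rw [X_mul, CharTwo.add_self_eq_zero, X_zero]

theorem comm_1 {a b : ℕ} (ha : a ∈ Lr) (hb : b ∈ Lr) (hab : a ≠ b) (h : sumF b a = 127) :
    Xr a (1 : K) * Xr b 1 = Xr b 1 * Xr a 1 := by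
  have := comm_tbl (hA := (sys (F := K)).toAddRel) hc ha hb hab 1 1
  rwa [if_pos h, mul_one] at this

theorem Rp_sq (i : ℕ) : (Rp i : GL chevE6.Idx K) * Rp i = 1 := by
  have c1 := comm_1 (K := K) (a := 36) (b := 56) (by decide) (by decide) (by decide) (by decide +kernel)
  have c2 := comm_1 (K := K) (a := 36) (b := 39) (by decide) (by decide) (by decide) (by decide +kernel)
  have c3 := comm_1 (K := K) (a := 56) (b := 39) (by decide) (by decide) (by decide) (by decide +kernel)
  match i with
  | 0 => exact X2 39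
  | 1 =>
    change Xr 36 (1 : K) * Xr 56 1 * (Xr 36 1 * Xr 56 1) = 1
    calc Xr 36 (1 : K) * Xr 56 1 * (Xr 36 1 * Xr 56 1) = Xr 36 1 * (Xr 56 1 * Xr 36 1) * Xr 56 1 := by group
      _ = Xr 36 1 * (Xr 36 1 * Xr 56 1) * Xr 56 1 := by rw [c1]
      _ = (Xr 36 1 * Xr 36 1) * (Xr 56 1 * Xr 56 1) := by group
      _ = 1 := by rw [X2, X2, one_mul]
  | _ + 2 =>
    change Xr 36 (1 : K) * Xr 56 1 * Xr 39 1 * (Xr 36 1 * Xr 56 1 * Xr 39 1) = 1
    calc Xr 36 (1 : K) * Xr 56 1 * Xr 39 1 * (Xr 36 1 * Xr 56 1 * Xr 39 1)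
        = Xr 36 1 * Xr 56 1 * (Xr 39 1 * Xr 36 1) * Xr 56 1 * Xr 39 1 := by group
      _ = Xr 36 1 * (Xr 56 1 * Xr 36 1) * (Xr 39 1 * Xr 56 1) * Xr 39 1 := by rw [← c2]; group
      _ = Xr 36 1 * (Xr 36 1 * Xr 56 1) * (Xr 56 1 * Xr 39 1) * Xr 39 1 := by rw [← c1, ← c3]
      _ = (Xr 36 1 * Xr 36 1) * (Xr 56 1 * Xr 56 1) * (Xr 39 1 * Xr 39 1) := by group
      _ = 1 := by rw [X2, X2, X2, one_mul, one_mul]

section Main

variable [Fintype K] {q : ℕ} {φ : K →+* K} {T : Tw (sys (F := K)).toAddRel}

theorem Rp_mem (C : Ctx q φ T) (i : ℕ) : (Rp i : GL chevE6.Idx K) ∈ twistedE6 K q := by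
  have h39 : Xr 39 (1 : K) ∈ twistedE6 K q := yL_mem C (by decide) (by decide) (map_one φ)
  have h36 : Xr 36 (1 : K) * Xr 56 1 ∈ twistedE6 K q := by
    have := yS_mem C (s := 36) (by decide) (by decide) (1 : K)
    rw [(by decide : bar 36 = 56), map_one, mul_one] at this
    exact this
  match i with
  | 0 => exact h39
  | 1 => exact h36
  | _ + 2 => exact Subgroup.mul_mem _ h36 h39

/-- The count. -/
theorem card_classes (hq : IsPrimePow q) (f : ℕ) (hf : q = 2 ^ f) (hK : Fintype.card K = q ^ 2) :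
    (ConjClasses.mk '' {g : ↥(twistedE6 K q) | orderOf g = 2}).ncard = 3 := by
  classical
  have : Fact (Nat.Prime 2) := ⟨Nat.prime_two⟩
  obtain ⟨φ, T, hφ, hφ2, hρ, hτ, I⟩ := main hq hK
  have C : Ctx q φ T := ⟨hφ, hφ2, hρ, hτ, I⟩
  have h2 : 2 ≤ q := hq.two_le
  obtain ⟨θ, hθ⟩ := exists_trace_one hφ hφ2 h2 hK
  -- the Sylow subgroup
  have hp : Nat.Prime 2 := Nat.prime_two
  have h2q : 2 ∣ q := by
    rw [hf]
    refine dvd_pow_self 2 ?_
    rintro rfl
    rw [hf] at h2
    simp at h2
  have hnd : ∀ n, 1 ≤ n → ¬ 2 ∣ q ^ n - 1 := by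
    intro n hn hd
    have h3 : 2 ∣ q ^ n := dvd_pow h2q (by omega)
    have h4 : 1 ≤ q ^ n := Nat.one_le_pow _ _ (by omega)
    have h5 : 2 ∣ 1 := by
      have := (Nat.dvd_sub h3 hd)
      rwa [Nat.sub_sub_self h4] at this
    omega
  have hnd' : ∀ n, 1 ≤ n → ¬ 2 ∣ q ^ n + 1 := by
    intro n hn hd
    have h3 : 2 ∣ q ^ n := dvd_pow h2q (by omega)
    have h5 : 2 ∣ 1 := (Nat.dvd_add_right h3).1 hd
    omega
  set d := Nat.gcd 3 (q + 1) with hd
  have hd0 : 0 < d := Nat.gcd_pos_of_pos_left _ (by omega)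
  have hcop : Nat.Coprime d q := by
    have h3 : d ∣ q + 1 := Nat.gcd_dvd_right _ _
    have : Nat.Coprime (q + 1) q := by simp
    exact Nat.Coprime.coprime_dvd_left h3 this
  set R := (q ^ 2 - 1) * (q ^ 5 + 1) * (q ^ 6 - 1) * (q ^ 8 - 1) * (q ^ 9 + 1) * (q ^ 12 - 1) with hR
  have hord : d * Nat.card ↥(twistedE6 K q) = q ^ 36 * R := by
    rw [card_main' hq hK, hR]
    ring
  have hdR : d ∣ R := by
    have h3 : d ∣ q ^ 36 * R := ⟨_, hord.symm⟩
    exact (Nat.Coprime.pow_right 36 hcop).dvd_of_dvd_mul_left h3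
  obtain ⟨r, hr⟩ := hdR
  have hcardG : Nat.card ↥(twistedE6 K q) = q ^ 36 * r := by
    refine Nat.eq_of_mul_eq_mul_left hd0 ?_
    rw [hord, hr]
    ring
  have hpR : ¬ 2 ∣ R := by
    intro h
    rw [hR] at h
    rcases (hp.dvd_mul).1 h with h | h
    · rcases (hp.dvd_mul).1 h with h | h
      · rcases (hp.dvd_mul).1 h with h | h
        · rcases (hp.dvd_mul).1 h with h | h
          · rcases (hp.dvd_mul).1 h with h | h
            · exact hnd 2 (by omega) h
            · exact hnd' 5 (by omega) h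
          · exact hnd 6 (by omega) h
        · exact hnd 8 (by omega) h
      · exact hnd' 9 (by omega) h
    · exact hnd 12 (by omega) h
  have hSyl : ∃ P : Sylow 2 ↥(twistedE6 K q),
      (P : Subgroup ↥(twistedE6 K q)) = (chevE6.posUnipotent K).subgroupOf (twistedE6 K q) := by
    refine sylow_of_card (m := 36 * f) (r := r) _ ?_ ?_ ?_
    · have : Nat.card ↥((chevE6.posUnipotent K).subgroupOf (twistedE6 K q)) =
          Nat.card ↥(chevE6.posUnipotent K ⊓ twistedE6 K q) :=
        Nat.card_congr (Equiv.mk (fun x => ⟨x.1.1, x.2, x.1.2⟩) (fun y => ⟨⟨y.1, y.2.2⟩, y.2.1⟩)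
          (fun _ => rfl) (fun _ => rfl))
      rw [this, card_U hq hK]
      nth_rewrite 1 [hf]
      rw [← pow_mul, mul_comm]
    · rw [hcardG]
      nth_rewrite 1 [hf]
      rw [← pow_mul, mul_comm f 36]
    · intro h
      exact hpR (hr ▸ Dvd.dvd.mul_left h d)
  -- the classes
  let a : ℕ → ↥(twistedE6 K q) := fun i => ⟨Rp i, Rp_mem C i⟩
  have hrk : ∀ {i j : ℕ}, ((Rp i : GL chevE6.Idx K) : Matrix chevE6.Idx chevE6.Idx K) - 1 ≠ 0 →
      (((Rp i : GL chevE6.Idx K) : Matrix chevE6.Idx chevE6.Idx K) - 1).rank ≠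
        (((Rp j : GL chevE6.Idx K) : Matrix chevE6.Idx chevE6.Idx K) - 1).rank →
      ConjClasses.mk (a i) ≠ ConjClasses.mk (a j) := by
    intro i j _ hne h
    rw [ConjClasses.mk_eq_mk_iff_isConj, isConj_iff] at h
    obtain ⟨c, hc'⟩ := h
    have h1 : (c : GL chevE6.Idx K) * Rp i * (c : GL chevE6.Idx K)⁻¹ = Rp j := congrArg Subtype.val hc'
    have h3 := rank_conj (F := K) (c : GL chevE6.Idx K) (Rp i)
    rw [h1] at h3
    exact hne h3.symm
  have hord2 : ∀ i, (Rp i : GL chevE6.Idx K) ≠ 1 → orderOf (a i) = 2 := by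
    intro i hi
    apply orderOf_eq_prime
    · rw [pow_two]
      exact Subtype.ext (Rp_sq i)
    · intro h
      exact hi (congrArg Subtype.val h)
  have hne_of : ∀ {i n : ℕ}, n ≠ 0 → (((Rp i : GL chevE6.Idx K) : Matrix chevE6.Idx chevE6.Idx K) - 1).rank = n →
      (Rp i : GL chevE6.Idx K) ≠ 1 := by
    intro i n hn h h1
    rw [h1] at h
    apply hn
    rw [← h]
    simp
  have hn0 : (Rp 0 : GL chevE6.Idx K) ≠ 1 := hne_of (by norm_num) rank0
  have hn1 : (Rp 1 : GL chevE6.Idx K) ≠ 1 := hne_of (by norm_num) rank1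
  have hn2 : (Rp 2 : GL chevE6.Idx K) ≠ 1 := hne_of (by norm_num) rank2
  have hset : ConjClasses.mk '' {g : ↥(twistedE6 K q) | orderOf g = 2} =
      {ConjClasses.mk (a 0), ConjClasses.mk (a 1), ConjClasses.mk (a 2)} := by
    ext c
    simp only [Set.mem_image, Set.mem_ofPred_eq, Set.mem_insert_iff, Set.mem_singleton_iff]
    constructor
    · rintro ⟨g, hg, rfl⟩
      obtain ⟨y, hy⟩ := exists_conj_sylow hSyl hg
      have hy1 : ((y * g * y⁻¹ : ↥(twistedE6 K q)) : GL chevE6.Idx K) ∈ chevE6.posUnipotent K := Subgroup.mem_subgroupOf.1 hy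
      obtain ⟨t, ht⟩ := exists_uu hy1
      have hg2 : g * g = 1 := by
        rw [← pow_two, ← hg, pow_orderOf_eq_one]
      have hg1 : (g : GL chevE6.Idx K) ≠ 1 := by
        intro h
        have : g = 1 := Subtype.ext h
        rw [this, orderOf_one] at hg
        omega
      have hGood : Good q t := by
        refine ⟨?_, ?_, ?_⟩
        · rw [← ht]
          exact (y * g * y⁻¹).2
        · rw [← ht]
          have : y * g * y⁻¹ * (y * g * y⁻¹) = 1 := by
            calc y * g * y⁻¹ * (y * g * y⁻¹) = y * (g * g) * y⁻¹ := by group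
              _ = 1 := by rw [hg2]; group
          exact congrArg Subtype.val this
        · rw [← ht]
          intro h
          apply hg1
          have h3 : y * g * y⁻¹ = 1 := Subtype.ext h
          have h4 : g = y⁻¹ * (y * g * y⁻¹) * y := by group
          rw [h4, h3]
          simp
      obtain ⟨z, hz, i, hi, h⟩ := tree_final C hθ hGood
      have key : ConjClasses.mk g = ConjClasses.mk (a i) := by
        rw [ConjClasses.mk_eq_mk_iff_isConj, isConj_iff]
        refine ⟨⟨z, hz⟩ * y, Subtype.ext ?_⟩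
        have h5 : ((⟨z, hz⟩ * y * g * (⟨z, hz⟩ * y)⁻¹ : ↥(twistedE6 K q)) : GL chevE6.Idx K) =
            z * ((y * g * y⁻¹ : ↥(twistedE6 K q)) : GL chevE6.Idx K) * z⁻¹ := by
          simp only [Subgroup.coe_mul, Subgroup.coe_inv]
          group
        rw [h5, ht]
        exact h
      rw [key]
      interval_cases i
      · exact Or.inl rfl
      · exact Or.inr (Or.inl rfl)
      · exact Or.inr (Or.inr rfl)
    · rintro (rfl | rfl | rfl)
      · exact ⟨a 0, hord2 0 hn0, rfl⟩
      · exact ⟨a 1, hord2 1 hn1, rfl⟩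
      · exact ⟨a 2, hord2 2 hn2, rfl⟩
  refine Set.ncard_eq_three.2 ⟨_, _, _, ?_, ?_, ?_, hset⟩
  · refine hrk ?_ (by rw [rank0, rank1]; norm_num)
    exact fun h => hn0 (Units.ext (sub_eq_zero.1 h))
  · refine hrk ?_ (by rw [rank0, rank2]; norm_num)
    exact fun h => hn0 (Units.ext (sub_eq_zero.1 h))
  · refine hrk ?_ (by rw [rank1, rank2]; norm_num)
    exact fun h => hn1 (Units.ext (sub_eq_zero.1 h))

end Main

end Cfsg.Agent.Lib.Twisted.E6Inv
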