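import Cfsg.Agent.Lib.Twisted.E6Inv.Tree
import Cfsg.Agent.Lib.Twisted.E6Torus

/-!
# Involutions of `²E₆(q)`: the soundness of the tree
-/

set_option autoImplicit false
set_option maxRecDepth 1000000
set_option linter.unusedSectionVars false
set_option linter.unusedSimpArgs false

namespace Cfsg.Agent.Lib.Twisted.E6Inv

open Cfsg.Lie Cfsg.Agent.Lib.Chevalley.Reflect
open Cfsg.Agent.Lib.Chevalley.Tbl.E6 (cols colOK sys comm)
open Cfsg.Agent.Lib.ChevBN.Elem Cfsg.Agent.Lib.ChevBN.Table Cfsg.Agent.Lib.ChevBN.Opp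
open Cfsg.Agent.Lib.ChevBN.FastData (tbl_chevE6)
open Cfsg.Agent.Lib.ChevBN.Rel (commPos Sys)
open Cfsg.Agent.Lib.ChevBN.Collect (CommPos)
open Cfsg.Agent.Lib.Twisted.Coll Cfsg.Agent.Lib.Twisted.E6

set_option quotPrecheck false in
/-- The root elements. -/
local notation "Xr" => X (sys (F := _)).toAddRel

set_option quotPrecheck false in
/-- Normal elements. -/
local notation "uu" => uL (sys (F := _)).toAddRel Lr

section Data

theorem Lr_nodup : Lr.Nodup := by decide
theorem Lr_lt : ∀ r ∈ Lr, r < chevE6.nroots := by decide +kernel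
theorem Lr_tail : tailOK chevE6 Lr = true := by decide +kernel
theorem Lr_pos : ∀ r ∈ Lr, chevE6.IsPosRoot r := by decide +kernel
theorem Lr_small : ∀ r ∈ Lr, r ≠ 100 ∧ r ≠ 101 := by decide
theorem Lr_odd : ∀ r ∈ Lr, ε0 r % 2 = 1 := by decide +kernel
theorem Lr_rho : ∀ r ∈ Lr, ρ0 r = bar r := by decide +kernel
theorem bar_mem : ∀ r ∈ Lr, bar r ∈ Lr := by decide
theorem bar_bar : ∀ r ∈ Lr, bar (bar r) = r := by decide
theorem bar_comm : ∀ s ∈ Lr, bar s ≠ s → sumF (bar s) s = 127 := by decide +kernel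
theorem all_keys : (nfF (idW chevE6.posRoots)).map Prod.fst = Lr := by decide +kernel
theorem Sq_keys : Sq.map Prod.fst = Lr := by decide +kernel
theorem rho_chk : nfF (Lr.map fun r => (bar r, [[r]])) = Lr.map fun r => (r, [[bar r]]) := by decide +kernel
theorem Ft_keys : ∀ p ∈ Ft, p.2.map Prod.fst = Lr := by decide +kernel
theorem Ft_lr : ∀ p ∈ Ft, p.1 ∈ Lr := by decide +kernel

theorem Ft_spec : ∀ p ∈ Ft, NFW (wY p.1 ++ idW Lr ++ (wY p.1).reverse) = p.2 := by
  intro p hp
  simp only [Ft, List.mem_cons, List.not_mem_nil, or_false] at hp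
  rcases hp with rfl | rfl | rfl | rfl | rfl | rfl | rfl | rfl | rfl | rfl | rfl | rfl | rfl | rfl | rfl | rfl | rfl | rfl |
    rfl | rfl | rfl | rfl | rfl | rfl
  exacts [F36_eq, F37_eq, F39_eq, F46_eq, F38_eq, F40_eq, F47_eq, F41_eq, F44_eq, F48_eq, F45_eq, F49_eq, F51_eq, F60_eq,
    F52_eq, F53_eq, F63_eq, F54_eq, F65_eq, F55_eq, F66_eq, F69_eq, F70_eq, F71_eq]

theorem mem_of_lookup {l : List (ℕ × Wd)} {s : ℕ} {N : Wd} (h : l.lookup s = some N) : (s, N) ∈ l := by
  induction l with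
  | nil => simp at h
  | cons p l ih =>
    obtain ⟨a, b⟩ := p
    by_cases hsa : s = a
    · subst hsa
      simp only [List.lookup_cons, beq_self_eq_true, Option.some.injEq] at h
      subst h
      simp
    · have hb : (s == a) = false := by simpa using hsa
      simp only [List.lookup_cons, hb] at h
      exact List.mem_cons_of_mem _ (ih h)

theorem F_spec {s : ℕ} (hs : inFt Ft s = true) : s ∈ Lr ∧ NFW (wY s ++ idW Lr ++ (wY s).reverse) = fy Ft s ∧
    (fy Ft s).map Prod.fst = Lr := by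
  obtain ⟨N, hN⟩ := Option.isSome_iff_exists.1 hs
  have h1 := mem_of_lookup hN
  have e : fy Ft s = N := by simp [fy, hN]
  rw [e]
  exact ⟨Ft_lr _ h1, Ft_spec _ h1, Ft_keys _ h1⟩

end Data

variable {K : Type*} [Field K] [CharP K 2]

/-- Data of the twisted group. -/
structure Ctx (q : ℕ) (φ : K →+* K) (T : Tw (sys (F := K)).toAddRel) : Prop where
  hφ : ∀ t, φ t = t ^ q
  hφ2 : ∀ t, φ (φ t) = t
  hρ : T.ρ = ρ0
  hτ : ∀ r t, T.τ r t = ((ε0 r : ℤ) : K) * φ t
  I : Inst sys tbl_chevE6 T Js cl (twistedE6 K q)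

variable {q : ℕ} {φ : K →+* K} {T : Tw (sys (F := K)).toAddRel}

theorem hc : CommPos (sys (F := K)).toAddRel := commPos sys

/-- Involutions in normal form. -/
structure Good (q : ℕ) (t : ℕ → K) : Prop where
  mem : uu t ∈ twistedE6 K q
  sq : uu t * uu t = 1
  ne : uu t ≠ 1

/-- The representatives. -/
noncomputable def Rp (i : ℕ) : GL chevE6.Idx K :=
  match i with
  | 0 => Xr 39 1
  | 1 => Xr 36 1 * Xr 56 1
  | _ => Xr 36 1 * Xr 56 1 * Xr 39 1

/-- Conjugate to a representative. -/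
def Tgt (q : ℕ) (g : GL chevE6.Idx K) : Prop :=
  ∃ y ∈ twistedE6 K q, ∃ i < 3, y * g * y⁻¹ = Rp i

theorem Good.conj {t t' : ℕ → K} (h : Good q t) {y : GL chevE6.Idx K} (hy : y ∈ twistedE6 K q)
    (e : y * uu t * y⁻¹ = uu t') : Good q t' := by
  refine ⟨?_, ?_, ?_⟩
  · rw [← e]
    exact Subgroup.mul_mem _ (Subgroup.mul_mem _ hy h.mem) (Subgroup.inv_mem _ hy)
  · rw [← e]
    calc y * uu t * y⁻¹ * (y * uu t * y⁻¹) = y * (uu t * uu t) * y⁻¹ := by group
      _ = 1 := by rw [h.sq]; group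
  · rw [← e]
    intro h1
    apply h.ne
    have : uu t = y⁻¹ * (y * uu t * y⁻¹) * y := by group
    rw [this, h1]
    group

theorem Tgt.back {g g' y : GL chevE6.Idx K} (hy : y ∈ twistedE6 K q) (e : y * g * y⁻¹ = g') (h : Tgt q g') :
    Tgt q g := by
  obtain ⟨z, hz, i, hi, h1⟩ := h
  refine ⟨z * y, Subgroup.mul_mem _ hz hy, i, hi, ?_⟩
  have : z * y * g * (z * y)⁻¹ = z * g' * z⁻¹ := by
    rw [← e]
    group
  rwa [this]

theorem step {t t' : ℕ → K} (hG : Good q t) {y : GL chevE6.Idx K} (hy : y ∈ twistedE6 K q)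
    (e : y * uu t * y⁻¹ = uu t') (h : Good q t' → Tgt q (uu t')) : Tgt q (uu t) :=
  Tgt.back hy e (h (hG.conj hy e))

/-- The valuation with parameters, vanishing outside the active coordinates. -/
def envA (A : List ℕ) (t : ℕ → K) (e e' : K) : ℕ → K :=
  fun i => if i = 100 then e else if i = 101 then e' else if A.contains i then t i else 0

section Env

variable {A : List ℕ} {t : ℕ → K} (e e' : K)

theorem envA_100 : envA A t e e' 100 = e := by simp [envA]
theorem envA_101 : envA A t e e' 101 = e' := by simp [envA]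

theorem envA_L (hZ : ∀ r ∈ Lr, r ∉ A → t r = 0) {r : ℕ} (hr : r ∈ Lr) : envA A t e e' r = t r := by
  obtain ⟨h1, h2⟩ := Lr_small r hr
  by_cases h3 : r ∈ A
  · simp [envA, h1, h2, h3]
  · simp [envA, h1, h2, h3, hZ r hr h3]

theorem evP_flt (p : Pol) : evP (envA A t e e') (flt A p) = evP (envA A t e e') p := by
  induction p with
  | nil => rfl
  | cons m p ih =>
    by_cases h : (m.all fun v => decide (100 ≤ v) || A.contains v) = true
    · simp only [flt, List.filter_cons, h, if_true, evP_cons] at ih ⊢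
      rw [ih]
    · have h0 : evM (envA A t e e') m = 0 := by
        simp only [List.all_eq_true, Bool.or_eq_true, decide_eq_true_eq, not_forall] at h
        obtain ⟨v, hv, h1⟩ := h
        push Not at h1
        have h2 : envA A t e e' v = 0 := by
          have h3 : v ≠ 100 := by omega
          have h4 : v ≠ 101 := by omega
          have h5 : ¬ v ∈ A := by simpa using h1.2
          simp [envA, h3, h4, h5]
        rw [evM]
        exact List.prod_eq_zero (List.mem_map.2 ⟨v, hv, h2⟩)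
      simp only [flt, List.filter_cons, h, if_false, evP_cons, h0, zero_add] at ih ⊢
      exact ih

theorem ofW_lk (N : Wd) (z : ℕ) : ofW (envA A t e e') N z = evP (envA A t e e') (lk A N z) := by
  rw [lk, evP_flt, ofW]

end Env

theorem uu_env {A : List ℕ} {t : ℕ → K} (e e' : K) (hZ : ∀ r ∈ Lr, r ∉ A → t r = 0) :
    W (sys (F := K)).toAddRel (evW (envA A t e e') (idW Lr)) = uu t :=
  evW_idW' _ t Lr fun _ hr => envA_L e e' hZ hr

/-- Conjugation by a root element, from the table. -/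
theorem conj_y {A : List ℕ} {t : ℕ → K} (e e' : K) (hZ : ∀ r ∈ Lr, r ∉ A → t r = 0) {s : ℕ} (hs : inFt Ft s = true) :
    W (sys (F := K)).toAddRel (evW (envA A t e e') (wY s)) * uu t * (W (sys (F := K)).toAddRel (evW (envA A t e e') (wY s)))⁻¹ =
      uu (ofW (envA A t e e') (fy Ft s)) := by
  obtain ⟨-, h2, h3⟩ := F_spec hs
  rw [← W_eq_uL _ h3 Lr_nodup, ← h2, NFW, W_nfF _ hc, ← uu_env e e' hZ, W_inv2]
  simp only [evW, List.map_append, W_append, List.map_reverse]

/-- Squares. -/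
theorem sq_y {A : List ℕ} {t : ℕ → K} (hZ : ∀ r ∈ Lr, r ∉ A → t r = 0) (h : uu t * uu t = 1) (z : ℕ) (hz : z ∈ Lr) :
    evP (envA A t 0 0) (lk A Sq z) = 0 := by
  have h1 : uu t * uu t = uu (ofW (envA A t 0 0) Sq) := by
    rw [← W_eq_uL _ Sq_keys Lr_nodup, ← Sq_eq, NFW, W_nfF _ hc, ← uu_env 0 0 hZ]
    simp only [evW, List.map_append, W_append]
  rw [h1, ← uL_zero (hA := (sys (F := K)).toAddRel) Lr] at h
  rw [← ofW_lk]
  exact uL_inj tbl_chevE6 Lr_tail h z hz

section Ctx

variable (C : Ctx q φ T)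
include C

/-- The twisting map on normal elements. -/
theorem s_uu (t : ℕ → K) : T.s (uu t) = uu (fun r => φ (t (bar r))) := by
  have h1 : T.s (uu t) = W (sys (F := K)).toAddRel (evW (fun r => φ (t r)) (Lr.map fun r => (bar r, [[r]]))) := by
    rw [uL, s_W T _ (by
      intro p hp
      obtain ⟨r, hr, rfl⟩ := List.mem_map.mp hp
      exact Lr_lt r hr), List.map_map, evW, List.map_map]
    congr 1
    refine List.map_congr_left fun r hr => ?_
    simp [C.hτ, odd_cast (Lr_odd r hr), C.hρ, Lr_rho r hr]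
  rw [h1, ← W_nfF _ hc, rho_chk, uL, evW, List.map_map]
  congr 1
  exact List.map_congr_left fun r hr => by simp

/-- The relations of a fixed point. -/
theorem fix_t {t : ℕ → K} (h : uu t ∈ T.Fx) {r : ℕ} (hr : r ∈ Lr) : t (bar r) = φ (t r) := by
  have h1 := h.2
  rw [s_uu C] at h1
  have h2 := uL_inj tbl_chevE6 Lr_tail h1 r hr
  have h3 := congrArg φ h2
  rw [C.hφ2] at h3
  exact h3

/-- Words in positive roots fixed by the twisting map lie in the group. -/
theorem W_mem [Finite K] (l : List (ℕ × K)) (h1 : ∀ p ∈ l, chevE6.IsPosRoot p.1)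
    (h2 : T.s (W (sys (F := K)).toAddRel l) = W (sys (F := K)).toAddRel l) : W (sys (F := K)).toAddRel l ∈ twistedE6 K q := by
  refine C.I.U_le ⟨?_, ?_, h2⟩
  · rw [Cfsg.Agent.Lib.ChevBN.Stmts.posUnipotent_eq_list (sys (F := K)) tbl_chevE6]
    apply W_mem_gen
    intro p hp
    exact Cfsg.Agent.Lib.ChevBN.Stmts.mem_posRoots.2 (h1 p hp)
  · rw [group_eq (sys (F := K)).toAddRel]
    apply W_mem_gen (Ψ := {r | r < chevE6.nroots})
    intro p hp
    exact (h1 p hp).1

theorem s_Xr {r : ℕ} (hr : r ∈ Lr) (s : K) : T.s (Xr r s) = Xr (bar r) (φ s) := by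
  rw [T.s_X r (Lr_lt r hr), C.hρ, C.hτ, odd_cast (Lr_odd r hr), one_mul, Lr_rho r hr]

theorem yL_mem [Finite K] {s : ℕ} (hs : s ∈ Lr) (hb : bar s = s) {e : K} (he : φ e = e) : Xr s e ∈ twistedE6 K q := by
  have := W_mem C [(s, e)] (by simpa using Lr_pos s hs) (by
    simp only [W_cons, W_nil, mul_one]
    rw [s_Xr C hs, hb, he])
  simpa using this

theorem yS_mem [Finite K] {s : ℕ} (hs : s ∈ Lr) (hb : bar s ≠ s) (e : K) : Xr s e * (Xr (bar s) (φ e) * 1) ∈ twistedE6 K q := by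
  have hs' := bar_mem s hs
  have hcm := Cfsg.Agent.Lib.Twisted.E6Inv.comm_tbl (hA := (sys (F := K)).toAddRel) hc hs hs' (Ne.symm hb) e (φ e)
  rw [if_pos (bar_comm s hs hb), mul_one] at hcm
  have := W_mem C [(s, e), (bar s, φ e)] (by
    intro p hp
    simp only [List.mem_cons, List.not_mem_nil, or_false] at hp
    rcases hp with rfl | rfl
    · exact Lr_pos s hs
    · exact Lr_pos _ hs') (by
    have m : ∀ (r : ℕ) (hr : r ∈ Lr) (x : K), Xr r x ∈ chevE6.group K := fun r hr x =>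
      Tw.X_mem_group (Lr_lt r hr) x
    simp only [W_cons, W_nil, mul_one]
    rw [T.s_mul _ (m _ hs _) _ (m _ hs' _), s_Xr C hs, s_Xr C hs', bar_bar s hs, C.hφ2]
    exact hcm.symm)
  simpa using this

end Ctx

end Cfsg.Agent.Lib.Twisted.E6Inv
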