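import Cfsg.Agent.Lib.Twisted.E6Inv.Sound

/-!
# Involutions of `²E₆(q)`: the soundness of the tree, the steps
-/

set_option autoImplicit false
set_option maxRecDepth 1000000
set_option linter.unusedSectionVars false
set_option linter.unusedSimpArgs false

namespace Cfsg.Agent.Lib.Twisted.E6Inv

open Cfsg.Lie Cfsg.Agent.Lib.Chevalley.Reflect
open Cfsg.Agent.Lib.Chevalley.Tbl.E6 (cols colOK sys comm)
open Cfsg.Agent.Lib.ChevBN.Elem Cfsg.Agent.Lib.ChevBN.Table Cfsg.Agent.Lib.ChevBN.Opp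
open Cfsg.Agent.Lib.ChevBN.FastData (tbl_chevE6)
open Cfsg.Agent.Lib.ChevBN.Rel (commPos Sys)
open Cfsg.Agent.Lib.ChevBN.Collect (CommPos)
open Cfsg.Agent.Lib.Twisted.Coll Cfsg.Agent.Lib.Twisted.E6

set_option quotPrecheck false in
/-- The root elements. -/
local notation "Xr" => X (sys (F := _)).toAddRel

set_option quotPrecheck false in
/-- Normal elements. -/
local notation "uu" => uL (sys (F := _)).toAddRel Lr

set_option quotPrecheck false in
/-- Words. -/
local notation "WW" => W (sys (F := _)).toAddRel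

variable {K : Type*} [Field K] [CharP K 2]

/-! ### Field lemmas -/

omit [CharP K 2] in
theorem sq_inj [CharP K 2] {x y : K} (h : x * x = y * y) : x = y := by
  have two : (2 : K) = 0 := CharTwo.two_eq_zero
  have h1 : (x + y) * (x + y) = 0 := by
    linear_combination h + (x * y + y * y) * two
  have h2 : x + y = 0 := mul_self_eq_zero.mp h1
  linear_combination h2 - y * two

theorem exists_sqrt [Finite K] (x : K) : ∃ y : K, y * y = x := by
  have h : Function.Injective (fun y : K => y * y) := fun a b hab => sq_inj hab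
  exact (Finite.injective_iff_surjective.mp h) x

theorem sqrt_fix {φ : K →+* K} {x y : K} (hx : φ x = x) (hy : y * y = x) : φ y = y := by
  apply sq_inj
  rw [← map_mul, hy, hx]

variable {q : ℕ} {φ : K →+* K} {T : Tw (sys (F := K)).toAddRel}

omit [Field K] [CharP K 2] in
theorem look_of_not_key {N : Wd} {z : ℕ} (h : z ∉ N.map Prod.fst) : look N z = [] := by
  induction N with
  | nil => rfl
  | cons p N ih =>
    obtain ⟨a, b⟩ := p
    simp only [List.map_cons, List.mem_cons, not_or] at h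
    have hb : (z == a) = false := by simpa using h.1
    have := ih h.2
    simp only [look, List.lookup_cons, hb] at this ⊢
    exact this

theorem sq_y' {A : List ℕ} {t : ℕ → K} (hZ : ∀ r ∈ Lr, r ∉ A → t r = 0) (h : uu t * uu t = 1) (z : ℕ) :
    evP (envA A t 0 0) (lk A Sq z) = 0 := by
  by_cases hz : z ∈ Lr
  · exact sq_y hZ h z hz
  · have h1 : look Sq z = [] := look_of_not_key (by rw [Sq_keys]; exact hz)
    rw [lk, h1]
    rfl

omit [Field K] [CharP K 2] in
theorem wY_L {s : ℕ} (h : bar s = s) : wY s = wL s := by simp [wY, h]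

omit [Field K] [CharP K 2] in
theorem wY_S {s : ℕ} (h : bar s ≠ s) : wY s = wS s := by simp [wY, h]

omit [Field K] [CharP K 2] in
theorem mem_rm {k n : ℕ} {l : List ℕ} (h : n ∈ rm k l) : n ∈ l := List.mem_of_mem_filter h

omit [Field K] [CharP K 2] in
theorem not_mem_rm {k n : ℕ} {l : List ℕ} (h : n ∉ rm k l) : n ∉ l ∨ n = k ∨ n = bar k := by
  by_cases h1 : n ∈ l
  · right
    by_contra h2
    push Not at h2
    apply h
    exact List.mem_filter.2 ⟨h1, by simp [h2.1, h2.2]⟩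
  · exact Or.inl h1

section Step

variable [Finite K] (C : Ctx q φ T)
include C

/-- Vanishing of a coordinate and of its conjugate. -/
theorem zero_step {A : List ℕ} {t : ℕ → K} (hG : Good q t) (hZ : ∀ r ∈ Lr, r ∉ A → t r = 0) {k : ℕ} (hk : k ∈ Lr)
    (h0 : t k = 0) : ∀ r ∈ Lr, r ∉ rm k A → t r = 0 := by
  intro r hr h
  rcases not_mem_rm h with h1 | rfl | rfl
  · exact hZ r hr h1
  · exact h0
  · rw [fix_t C (C.I.fix hG.mem) hk, h0, map_zero]

/-- The common core of the clearing steps. -/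
theorem c_step {A NZ ex : List ℕ} {t : ℕ → K} {s k : ℕ} (e e' : K)
    (hs : inFt Ft s = true) (hG : Good q t)
    (hZ : ∀ r ∈ Lr, r ∉ A → t r = 0)
    (hNZ : ∀ n ∈ NZ, t n ≠ 0) (hL : ∀ n ∈ NZ, n ∈ Lr) (hk : k ∈ Lr)
    (hy : WW (evW (envA A t e e') (wY s)) ∈ twistedE6 K q)
    (hzk : evP (envA A t e e') (lk A (fy Ft s) k) = 0)
    (hex : ∀ z ∈ ex, z = k ∨ z = bar k ∨ evP (envA A t e e') (lk A (fy Ft s) z) = 0)
    (hnz : nzOK A (fy Ft s) (rm k NZ) = true)
    (IH : ∀ t' : ℕ → K, Good q t' → (∀ r ∈ Lr, r ∉ nextA A (fy Ft s) ex → t' r = 0) → (∀ n ∈ rm k NZ, t' n ≠ 0) →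
      (∀ n ∈ rm k NZ, n ∈ Lr) → Tgt q (uu t')) :
    Tgt q (uu t) := by
  have e1 := conj_y e e' hZ hs
  refine step hG hy e1 fun hG' => IH _ hG' ?_ ?_ fun n hn => hL n (mem_rm hn)
  · intro r hr hn
    by_cases h2 : r ∈ ex
    · rcases hex r h2 with rfl | rfl | h3
      · rw [ofW_lk]
        exact hzk
      · rw [fix_t C (C.I.fix hG'.mem) hk, ofW_lk, hzk, map_zero]
      · rw [ofW_lk]
        exact h3
    · rw [ofW_lk]
      by_cases h1 : lk A (fy Ft s) r = []
      · rw [h1]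
        rfl
      · exfalso
        apply hn
        refine List.mem_filter.2 ⟨hr, ?_⟩
        have h3 : (lk A (fy Ft s) r).isEmpty = false := by
          cases h4 : lk A (fy Ft s) r with
          | nil => exact absurd h4 h1
          | cons _ _ => rfl
        simp [h3, h2]
  · intro n hn
    have h1 := List.all_eq_true.1 hnz n hn
    have h2 : lk A (fy Ft s) n = [[n]] := by simpa using h1
    rw [ofW_lk, h2, evP_single, envA_L e e' hZ (hL n (mem_rm hn))]
    exact hNZ n (mem_rm hn)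

theorem y_L_mem {A : List ℕ} {t : ℕ → K} (e e' : K) {s : ℕ} (hs : s ∈ Lr) (hb : bar s = s) (he : φ e = e) :
    WW (evW (envA A t e e') (wY s)) ∈ twistedE6 K q := by
  rw [wY_L hb]
  simp only [wL, evW, List.map_cons, List.map_nil, evP_single, envA_100, W_cons, W_nil, mul_one]
  exact yL_mem C hs hb he

theorem y_S_mem {A : List ℕ} {t : ℕ → K} (e : K) {s : ℕ} (hs : s ∈ Lr) (hb : bar s ≠ s) :
    WW (evW (envA A t e (φ e)) (wY s)) ∈ twistedE6 K q := by
  rw [wY_S hb]
  simp only [wS, evW, List.map_cons, List.map_nil, evP_single, envA_100, envA_101, W_cons, W_nil]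
  exact yS_mem C hs hb e

end Step

/-- The statement proved by induction on the tree. -/
def SoundAt (K : Type*) [Field K] [CharP K 2] (q : ℕ) (nd : Nd) : Prop :=
  ∀ A NZ : List ℕ, chk Ft Sq nd A NZ = true → ∀ t : ℕ → K, Good q t → (∀ r ∈ Lr, r ∉ A → t r = 0) →
    (∀ n ∈ NZ, t n ≠ 0) → (∀ n ∈ NZ, n ∈ Lr) → Tgt q (uu t)

section Steps

variable [Finite K] (C : Ctx q φ T)
include C

theorem s_split {k : ℕ} {z n : Nd} (ihz : SoundAt K q z) (ihn : SoundAt K q n) : SoundAt K q (.split k z n) := by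
  intro A NZ h t hG hZ hNZ hL
  simp only [chk, Bool.and_eq_true] at h
  obtain ⟨⟨h1, h2⟩, h3⟩ := h
  have hk : k ∈ Lr := by simpa using h1
  by_cases h0 : t k = 0
  · exact ihz _ _ h2 t hG (zero_step C hG hZ hk h0) hNZ hL
  · refine ihn _ _ h3 t hG hZ ?_ ?_
    · intro m hm
      simp only [List.mem_cons] at hm
      rcases hm with rfl | rfl | hm
      · exact h0
      · rw [fix_t C (C.I.fix hG.mem) hk]
        simpa using h0
      · exact hNZ m hm
    · intro m hm
      simp only [List.mem_cons] at hm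
      rcases hm with rfl | rfl | hm
      · exact hk
      · exact bar_mem k hk
      · exact hL m hm

theorem s_sqz {sig k : ℕ} {c : Nd} (ih : SoundAt K q c) : SoundAt K q (.sqz sig k c) := by
  intro A NZ h t hG hZ hNZ hL
  simp only [chk, Bool.and_eq_true] at h
  obtain ⟨⟨h1, h2⟩, h3⟩ := h
  have hk : k ∈ Lr := by simpa using h1
  have h4 := sq_y' hZ hG.sq sig
  have h0 : t k = 0 := by
    generalize lk A Sq sig = P at h2 h4
    match P, h2, h4 with
    | [m], h2, h4 =>
      simp only [Bool.and_eq_true, List.all_eq_true, Bool.or_eq_true, beq_iff_eq] at h2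
      rw [evP_cons, evP_nil, add_zero, evM, List.prod_eq_zero_iff] at h4
      obtain ⟨v, hv, h5⟩ := List.mem_map.1 h4
      rcases h2.2 v hv with rfl | h6
      · rwa [envA_L 0 0 hZ hk] at h5
      · have h7 : v ∈ NZ := by simpa using h6
        rw [envA_L 0 0 hZ (hL v h7)] at h5
        exact absurd h5 (hNZ v h7)
    | [], h2, _ => simp at h2
    | _ :: _ :: _, h2, _ => simp at h2
  exact ih _ _ h3 t hG (zero_step C hG hZ hk h0) hNZ hL

theorem s_cL {r s k : ℕ} {c : Nd} (ih : SoundAt K q c) : SoundAt K q (.cL r s k c) := by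
  intro A NZ h t hG hZ hNZ hL
  simp only [chk, Bool.and_eq_true, beq_iff_eq] at h
  obtain ⟨⟨⟨⟨⟨⟨⟨⟨h1, h2⟩, h3⟩, h4⟩, h5⟩, h6⟩, h7⟩, h8⟩, h9⟩ := h
  have hr : r ∈ Lr := hL r (by simpa using h2)
  have hk : k ∈ Lr := by simpa using h3
  have htr : t r ≠ 0 := hNZ r (by simpa using h2)
  have fr : φ (t r) = t r := by
    rw [← fix_t C (C.I.fix hG.mem) hr, h5]
  have fk : φ (t k) = t k := by
    rw [← fix_t C (C.I.fix hG.mem) hk, h6]
  have hz : evP (envA A t (t k / t r) 0) (lk A (fy Ft s) k) = 0 := by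
    rw [h7, evP_normP]
    simp only [evP_cons, evM_cons, evM_nil, evP_nil, mul_one, add_zero, envA_100, envA_L _ _ hZ hk, envA_L _ _ hZ hr]
    rw [mul_div_cancel₀ _ htr, CharTwo.add_self_eq_zero]
  refine c_step C (t k / t r) 0 h1 hG hZ hNZ hL hk
    (y_L_mem C _ _ (F_spec h1).1 h4 (by rw [map_div₀, fr, fk])) hz ?_ h8 fun t' a b c d => ih _ _ h9 t' a b c d
  intro z hz'
  simp only [List.mem_cons, List.not_mem_nil, or_false] at hz'
  rcases hz' with rfl | rfl
  · exact Or.inl rfl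
  · exact Or.inr (Or.inl rfl)

theorem s_cS {r s k : ℕ} {c : Nd} (ih : SoundAt K q c) : SoundAt K q (.cS r s k c) := by
  intro A NZ h t hG hZ hNZ hL
  simp only [chk, Bool.and_eq_true, beq_iff_eq] at h
  obtain ⟨⟨⟨⟨⟨⟨h1, h2⟩, h3⟩, h4⟩, h7⟩, h8⟩, h9⟩ := h
  have hr : r ∈ Lr := hL r (by simpa using h2)
  have hk : k ∈ Lr := by simpa using h3
  have htr : t r ≠ 0 := hNZ r (by simpa using h2)
  have hbs : bar s ≠ s := by simpa using h4
  have hz : evP (envA A t (t k / t r) (φ (t k / t r))) (lk A (fy Ft s) k) = 0 := by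
    rw [h7, evP_normP]
    simp only [evP_cons, evM_cons, evM_nil, evP_nil, mul_one, add_zero, envA_100, envA_L _ _ hZ hk, envA_L _ _ hZ hr]
    rw [mul_div_cancel₀ _ htr, CharTwo.add_self_eq_zero]
  refine c_step C (t k / t r) _ h1 hG hZ hNZ hL hk
    (y_S_mem C _ (F_spec h1).1 hbs) hz ?_ h8 fun t' a b c d => ih _ _ h9 t' a b c d
  intro z hz'
  simp only [List.mem_cons, List.not_mem_nil, or_false] at hz'
  rcases hz' with rfl | rfl
  · exact Or.inl rfl
  · exact Or.inr (Or.inl rfl)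

theorem s_cT {θ : K} (hθ : θ + φ θ = 1) {r s k : ℕ} {c : Nd} (ih : SoundAt K q c) : SoundAt K q (.cT r s k c) := by
  intro A NZ h t hG hZ hNZ hL
  simp only [chk, Bool.and_eq_true, beq_iff_eq] at h
  obtain ⟨⟨⟨⟨⟨⟨⟨h1, h2⟩, h3⟩, h6⟩, h4⟩, h7⟩, h8⟩, h9⟩ := h
  have hr : r ∈ Lr := hL r (by simpa using h2)
  have hk : k ∈ Lr := by simpa using h3
  have htr : t r ≠ 0 := hNZ r (by simpa using h2)
  have hbs : bar s ≠ s := by simpa using h4
  have two : (2 : K) = 0 := CharTwo.two_eq_zero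
  have fk : φ (t k) = t k := by
    rw [← fix_t C (C.I.fix hG.mem) hk, h6]
  have fr : t (bar r) = φ (t r) := fix_t C (C.I.fix hG.mem) hr
  have htr' : φ (t r) ≠ 0 := by simpa using htr
  have hz : evP (envA A t (θ * t k / t r) (φ (θ * t k / t r))) (lk A (fy Ft s) k) = 0 := by
    rw [h7, evP_normP]
    simp only [evP_cons, evM_cons, evM_nil, evP_nil, mul_one, add_zero, envA_100, envA_101, envA_L _ _ hZ hk,
      envA_L _ _ hZ hr, envA_L _ _ hZ (bar_mem r hr), fr, map_div₀, map_mul, fk]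
    field_simp
    linear_combination (t k) * hθ + (t k) * two
  refine c_step C (θ * t k / t r) _ h1 hG hZ hNZ hL hk
    (y_S_mem C _ (F_spec h1).1 hbs) hz ?_ h8 fun t' a b c d => ih _ _ h9 t' a b c d
  intro z hz'
  simp only [List.mem_cons, List.not_mem_nil, or_false] at hz'
  rcases hz' with rfl | rfl
  · exact Or.inl rfl
  · exact Or.inr (Or.inl rfl)

theorem s_cF {r s k sig : ℕ} {c : Nd} (ih : SoundAt K q c) : SoundAt K q (.cF r s k sig c) := by
  intro A NZ h t hG hZ hNZ hL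
  simp only [chk, Bool.and_eq_true, beq_iff_eq] at h
  obtain ⟨⟨⟨⟨⟨⟨⟨h1, h2⟩, h3⟩, h4⟩, h7⟩, h6⟩, h8⟩, h9⟩ := h
  have hr : r ∈ Lr := hL r (by simpa using h2)
  have hk : k ∈ Lr := by simpa using h3
  have htr : t r ≠ 0 := hNZ r (by simpa using h2)
  have two : (2 : K) = 0 := CharTwo.two_eq_zero
  have fr : t (bar r) = φ (t r) := fix_t C (C.I.fix hG.mem) hr
  have fk : t (bar k) = φ (t k) := fix_t C (C.I.fix hG.mem) hk
  have htr' : φ (t r) ≠ 0 := by simpa using htr
  have hsq := sq_y' hZ hG.sq sig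
  rw [h6, evP_normP] at hsq
  simp only [evP_cons, evM_cons, evM_nil, evP_nil, mul_one, add_zero, envA_L _ _ hZ hk, envA_L _ _ hZ hr,
    envA_L _ _ hZ (bar_mem r hr), envA_L _ _ hZ (bar_mem k hk), fr, fk] at hsq
  have hz : evP (envA A t (t k / t r) 0) (lk A (fy Ft s) k) = 0 := by
    rw [h7, evP_normP]
    simp only [evP_cons, evM_cons, evM_nil, evP_nil, mul_one, add_zero, envA_100, envA_L _ _ hZ hk, envA_L _ _ hZ hr]
    rw [mul_div_cancel₀ _ htr, CharTwo.add_self_eq_zero]
  refine c_step C (t k / t r) 0 h1 hG hZ hNZ hL hk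
    (y_L_mem C _ _ (F_spec h1).1 h4 ?_) hz ?_ h8 fun t' a b c d => ih _ _ h9 t' a b c d
  · rw [map_div₀]
    field_simp
    linear_combination hsq - (t k * φ (t r)) * two
  intro z hz'
  simp only [List.mem_cons, List.not_mem_nil, or_false] at hz'
  rcases hz' with rfl | rfl
  · exact Or.inl rfl
  · exact Or.inr (Or.inl rfl)

theorem s_cN {r s k : ℕ} {c : Nd} (ih : SoundAt K q c) : SoundAt K q (.cN r s k c) := by
  intro A NZ h t hG hZ hNZ hL
  simp only [chk, Bool.and_eq_true, beq_iff_eq] at h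
  obtain ⟨⟨⟨⟨⟨⟨⟨⟨h1, h2⟩, h3⟩, h5⟩, h6⟩, h4⟩, h7⟩, h8⟩, h9⟩ := h
  have hr : r ∈ Lr := hL r (by simpa using h2)
  have hk : k ∈ Lr := by simpa using h3
  have htr : t r ≠ 0 := hNZ r (by simpa using h2)
  have hbs : bar s ≠ s := by simpa using h4
  have fr : φ (t r) = t r := by
    rw [← fix_t C (C.I.fix hG.mem) hr, h5]
  have fk : φ (t k) = t k := by
    rw [← fix_t C (C.I.fix hG.mem) hk, h6]
  obtain ⟨e, he⟩ := exists_sqrt (t k / t r)
  have fe : φ e = e := sqrt_fix (by rw [map_div₀, fr, fk]) he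
  have hz : evP (envA A t e (φ e)) (lk A (fy Ft s) k) = 0 := by
    rw [h7, evP_normP]
    simp only [evP_cons, evM_cons, evM_nil, evP_nil, mul_one, add_zero, envA_100, envA_101, envA_L _ _ hZ hk,
      envA_L _ _ hZ hr, fe]
    rw [he, mul_div_cancel₀ _ htr, CharTwo.add_self_eq_zero]
  refine c_step C e _ h1 hG hZ hNZ hL hk
    (y_S_mem C _ (F_spec h1).1 hbs) hz ?_ h8 fun t' a b c d => ih _ _ h9 t' a b c d
  intro z hz'
  simp only [List.mem_cons, List.not_mem_nil, or_false] at hz'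
  rcases hz' with rfl | rfl
  · exact Or.inl rfl
  · exact Or.inr (Or.inl rfl)

theorem s_cK {r r2 s k z0 : ℕ} {c : Nd} (ih : SoundAt K q c) : SoundAt K q (.cK r r2 s k z0 c) := by
  intro A NZ h t hG hZ hNZ hL
  simp only [chk, Bool.and_eq_true, beq_iff_eq] at h
  obtain ⟨⟨⟨⟨⟨⟨⟨⟨⟨⟨h1, h2⟩, h2'⟩, h3⟩, h5⟩, h6⟩, h4⟩, h7⟩, h10⟩, h8⟩, h9⟩ := h
  have hr : r ∈ Lr := hL r (by simpa using h2)
  have hr2 : r2 ∈ Lr := hL r2 (by simpa using h2')
  have hk : k ∈ Lr := by simpa using h3
  have htr : t r ≠ 0 := hNZ r (by simpa using h2)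
  have htr2 : t r2 ≠ 0 := hNZ r2 (by simpa using h2')
  have hbs : bar s ≠ s := by simpa using h4
  have two : (2 : K) = 0 := CharTwo.two_eq_zero
  have fr : φ (t r) = t r := by
    rw [← fix_t C (C.I.fix hG.mem) hr, h5]
  have fk : φ (t k) = t k := by
    rw [← fix_t C (C.I.fix hG.mem) hk, h6]
  have fr2 : t (bar r2) = φ (t r2) := fix_t C (C.I.fix hG.mem) hr2
  have htr2' : φ (t r2) ≠ 0 := by simpa using htr2
  obtain ⟨κ, hκ⟩ := exists_sqrt (t k / (t r * t r2 * φ (t r2)))
  have fκ : φ κ = κ := sqrt_fix (by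
    simp only [map_div₀, map_mul, C.hφ2, fr, fk]
    rw [mul_assoc, mul_assoc, mul_comm (φ (t r2))]) hκ
  have fe : φ (κ * t r2) = κ * φ (t r2) := by rw [map_mul, fκ]
  have hz : evP (envA A t (κ * t r2) (φ (κ * t r2))) (lk A (fy Ft s) k) = 0 := by
    rw [h7, evP_normP]
    simp only [evP_cons, evM_cons, evM_nil, evP_nil, mul_one, add_zero, envA_100, envA_101, envA_L _ _ hZ hk,
      envA_L _ _ hZ hr, fe]
    have h11 : t r * (κ * t r2 * (κ * φ (t r2))) = t k := by
      have : t r * (κ * t r2 * (κ * φ (t r2))) = (κ * κ) * (t r * t r2 * φ (t r2)) := by ring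
      rw [this, hκ]
      field_simp
    rw [h11, CharTwo.add_self_eq_zero]
  have hz0 : evP (envA A t (κ * t r2) (φ (κ * t r2))) (lk A (fy Ft s) z0) = 0 := by
    rw [h10, evP_normP]
    simp only [evP_cons, evM_cons, evM_nil, evP_nil, mul_one, add_zero, envA_100, envA_101, envA_L _ _ hZ hr2,
      envA_L _ _ hZ (bar_mem r2 hr2), fr2, fe]
    linear_combination (κ * t r2 * φ (t r2)) * two
  refine c_step C (κ * t r2) _ h1 hG hZ hNZ hL hk
    (y_S_mem C _ (F_spec h1).1 hbs) hz ?_ h8 fun t' a b c d => ih _ _ h9 t' a b c d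
  intro z hz'
  simp only [List.mem_cons, List.not_mem_nil, or_false] at hz'
  rcases hz' with rfl | rfl | rfl
  · exact Or.inl rfl
  · exact Or.inr (Or.inl rfl)
  · exact Or.inr (Or.inr hz0)


omit C in
theorem uu_filter {A : List ℕ} {t : ℕ → K} (hZ : ∀ r ∈ Lr, r ∉ A → t r = 0) :
    uu t = WW ((Lr.filter fun r => A.contains r).map fun r => (r, t r)) := by
  have h1 : ∀ L : List ℕ, (∀ r ∈ L, r ∈ Lr) → uL (sys (F := K)).toAddRel L t = WW ((L.filter fun r => A.contains r).map fun r => (r, t r)) := by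
    intro L
    induction L with
    | nil => intro _; rfl
    | cons a L ih =>
      intro hL
      have h2 := ih fun r hr => hL r (by simp [hr])
      rw [uL_cons, h2]
      by_cases h : a ∈ A
      · simp [List.filter_cons, h]
      · simp [List.filter_cons, h, hZ a (hL a (by simp)) h]
  exact h1 Lr fun _ h => h

theorem s_weyl {i : ℕ} {c : Nd} (ih : SoundAt K q c) : SoundAt K q (.weyl i c) := by
  intro A NZ h t hG hZ hNZ hL
  simp only [chk, Bool.and_eq_true, decide_eq_true_eq] at h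
  obtain ⟨⟨⟨h1, h2⟩, h3⟩, h4⟩ := h
  have hJ : JsL.getD i [] ∈ Js := by
    interval_cases i <;> decide
  have hJ1 : ∀ j ∈ JsL.getD i [], j < chevE6.rank := by
    interval_cases i <;> decide
  have hkeys : (weylW (JsL.getD i []) A).map Prod.fst = Lr := by simpa [keysOK] using h2
  have e1 : prodA (sys (F := K)) (JsL.getD i []) * uu t * (prodA (sys (F := K)) (JsL.getD i []))⁻¹ =
      uu (ofW t (weylW (JsL.getD i []) A)) := by
    rw [← W_eq_uL _ hkeys Lr_nodup, weylW, NFW, W_nfF _ hc, uu_filter hZ,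
      prodA_conj_W sys tbl_chevE6 hJ1 _ (by
        intro p hp
        obtain ⟨r, hr, rfl⟩ := List.mem_map.mp hp
        exact Lr_lt r (List.mem_of_mem_filter hr)), evW, List.map_map, List.map_map]
    congr 1
    exact List.map_congr_left fun r hr => by simp [wJ]
  refine step hG (C.I.orth.prodA_mem_G1 sys tbl_chevE6 C.I.comm C.I.hw hJ) e1 fun hG' => ih _ _ h4 _ hG' ?_ ?_ ?_
  · intro r hr hn
    by_cases h5 : look (weylW (JsL.getD i []) A) r = []
    · rw [ofW, h5]
      rfl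
    · exfalso
      apply hn
      refine List.mem_filter.2 ⟨hr, ?_⟩
      cases h6 : look (weylW (JsL.getD i []) A) r with
      | nil => exact absurd h6 h5
      | cons _ _ => rfl
  · intro m hm
    obtain ⟨n, hn, rfl⟩ := List.mem_map.1 hm
    have h5 := List.all_eq_true.1 h3 n hn
    simp only [Bool.and_eq_true, beq_iff_eq] at h5
    rw [ofW, h5.2, evP_single]
    exact hNZ n hn
  · intro m hm
    obtain ⟨n, hn, rfl⟩ := List.mem_map.1 hm
    have h5 := List.all_eq_true.1 h3 n hn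
    simp only [Bool.and_eq_true, beq_iff_eq] at h5
    simpa using h5.1

theorem s_triv : SoundAt K q .triv := by
  intro A NZ h t hG hZ hNZ hL
  exfalso
  have h1 : A = [] := by simpa [chk] using h
  apply hG.ne
  have h2 : uu t = uu (fun _ => (0 : K)) := uL_congr fun r hr => hZ r hr (by simp [h1])
  rw [h2, uL_zero]

/-- The torus element. -/
theorem tor_exists (x c : K) (hx : x ≠ 0) (hc' : c ≠ 0) (hfc : φ c = c) :
    ∃ h ∈ twistedE6 K q, (∀ a : K, h * Xr 36 a * h⁻¹ = Xr 36 ((φ x) ^ 2 * a)) ∧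
      (∀ a : K, h * Xr 56 a * h⁻¹ = Xr 56 (x ^ 2 * a)) ∧ (∀ a : K, h * Xr 39 a * h⁻¹ = Xr 39 (c ^ 2 * a)) := by
  have : Fintype K := Fintype.ofFinite K
  obtain ⟨h, e⟩ := exists_Θ C.hφ C.hφ2 C.hρ C.hτ C.I (Units.mk0 x hx, 1, 1, ⟨Units.mk0 c hc', by
    rw [mem_fixU]
    exact hfc⟩)
  have e' : h.1 = torJ (sys (F := K)).toAddRel [1, 3, 0, 5, 2, 4] (dP φ x 1 1 c) := by
    simpa using e
  have hd : ∀ i ∈ ([1, 3, 0, 5, 2, 4] : List ℕ), dP φ x 1 1 c i ≠ 0 := by
    intro i hi
    simp only [List.mem_cons, List.not_mem_nil, or_false] at hi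
    rcases hi with rfl | rfl | rfl | rfl | rfl | rfl <;> simp [dP, hx, hc']
  refine ⟨h.1, h.2.2, ?_, ?_, ?_⟩
  · intro a
    rw [e', torJ_conj sys (by decide) hd (by decide +kernel) a]
    simp only [List.map_cons, List.map_nil, List.prod_cons, List.prod_nil]
    rw [(by decide +kernel : chevE6.cartan 1 36 = 0), (by decide +kernel : chevE6.cartan 3 36 = 0),
      (by decide +kernel : chevE6.cartan 0 36 = 0), (by decide +kernel : chevE6.cartan 5 36 = 2),
      (by decide +kernel : chevE6.cartan 2 36 = 0), (by decide +kernel : chevE6.cartan 4 36 = -1)]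
    simp [dP, zpow_two, sq]
  · intro a
    rw [e', torJ_conj sys (by decide) hd (by decide +kernel) a]
    simp only [List.map_cons, List.map_nil, List.prod_cons, List.prod_nil]
    rw [(by decide +kernel : chevE6.cartan 1 56 = 0), (by decide +kernel : chevE6.cartan 3 56 = 0),
      (by decide +kernel : chevE6.cartan 0 56 = 2), (by decide +kernel : chevE6.cartan 5 56 = 0),
      (by decide +kernel : chevE6.cartan 2 56 = -1), (by decide +kernel : chevE6.cartan 4 56 = 0)]
    simp [dP, zpow_two, sq]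
  · intro a
    rw [e', torJ_conj sys (by decide) hd (by decide +kernel) a]
    simp only [List.map_cons, List.map_nil, List.prod_cons, List.prod_nil]
    rw [(by decide +kernel : chevE6.cartan 1 39 = -1), (by decide +kernel : chevE6.cartan 3 39 = 2),
      (by decide +kernel : chevE6.cartan 0 39 = 0), (by decide +kernel : chevE6.cartan 5 39 = 0),
      (by decide +kernel : chevE6.cartan 2 39 = -1), (by decide +kernel : chevE6.cartan 4 39 = -1)]
    simp [dP, zpow_two, sq]

/-- Scaling a pair of root elements and a long root element. -/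
theorem tor_final (a b : K) (ha : a ≠ 0) (hb : b ≠ 0) (hfa : φ a = a) :
    ∃ h ∈ twistedE6 K q, h * Xr 36 b * h⁻¹ = Xr 36 1 ∧ h * Xr 56 (φ b) * h⁻¹ = Xr 56 1 ∧ h * Xr 39 a * h⁻¹ = Xr 39 1 := by
  obtain ⟨c, hc1⟩ := exists_sqrt (a⁻¹)
  obtain ⟨u, hu1⟩ := exists_sqrt (b⁻¹)
  have hfc : φ c = c := sqrt_fix (by simp [hfa]) hc1
  have hc2 : c ≠ 0 := by
    rintro rfl
    simp at hc1
    exact ha hc1.symm
  have hu2 : u ≠ 0 := by
    rintro rfl
    simp at hu1
    exact hb hu1.symm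
  obtain ⟨h, hh, h36, h56, h39⟩ := tor_exists C (φ u) c (by simpa using hu2) hc2 hfc
  have e1 : u ^ 2 * b = 1 := by
    rw [sq, hu1]
    field_simp
  have e2 : (φ u) ^ 2 * φ b = 1 := by
    rw [← map_pow, ← map_mul, e1, map_one]
  have e3 : c ^ 2 * a = 1 := by
    rw [sq, hc1]
    field_simp
  refine ⟨h, hh, ?_, ?_, ?_⟩
  · rw [h36, C.hφ2, e1]
  · rw [h56, e2]
  · rw [h39, e3]

theorem s_leaf {i : ℕ} : SoundAt K q (.leaf i) := by
  intro A NZ h t hG hZ hNZ hL
  simp only [chk, Bool.and_eq_true, decide_eq_true_eq, beq_iff_eq, List.all_eq_true] at h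
  obtain ⟨⟨h1, h2⟩, h3⟩ := h
  have h4 := uu_filter hZ
  rw [h2] at h4
  have fx : ∀ z ∈ Lr, t (bar z) = φ (t z) := fun z hz => fix_t C (C.I.fix hG.mem) hz
  have f39 : φ (t 39) = t 39 := (fx 39 (by decide)).symm
  have f56 : t 56 = φ (t 36) := fx 36 (by decide)
  have conj3 : ∀ (h x y z : GL chevE6.Idx K), h * (x * y * z) * h⁻¹ = (h * x * h⁻¹) * (h * y * h⁻¹) * (h * z * h⁻¹) := by
    intro h x y z
    group
  have conj2 : ∀ (h x y : GL chevE6.Idx K), h * (x * y) * h⁻¹ = (h * x * h⁻¹) * (h * y * h⁻¹) := by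
    intro h x y
    group
  have hne : ∀ z ∈ repL i, t z ≠ 0 := fun z hz => hNZ z (by simpa using h3 z hz)
  match i, h1, h4, hne with
  | 0, _, h4, hne =>
    have h39 := hne 39 (by decide)
    obtain ⟨y, hy, -, -, e39⟩ := tor_final C (t 39) 1 h39 one_ne_zero f39
    refine ⟨y, hy, 0, by omega, ?_⟩
    rw [h4]
    simpa [repL, Rp] using e39
  | 1, _, h4, hne =>
    have h36 := hne 36 (by decide)
    obtain ⟨y, hy, e36, e56, -⟩ := tor_final C 1 (t 36) one_ne_zero h36 (map_one φ)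
    refine ⟨y, hy, 1, by omega, ?_⟩
    rw [h4]
    simp only [repL, List.map_cons, List.map_nil, W_cons, W_nil, mul_one, Rp]
    rw [conj2, e36, f56, e56]
  | 2, _, h4, hne =>
    have h36 := hne 36 (by decide)
    have h39 := hne 39 (by decide)
    obtain ⟨y, hy, e36, e56, e39⟩ := tor_final C (t 39) (t 36) h39 h36 f39
    refine ⟨y, hy, 2, by omega, ?_⟩
    rw [h4]
    simp only [repL, List.map_cons, List.map_nil, W_cons, W_nil, mul_one, Rp]
    rw [← mul_assoc (Xr 36 (t 36)), conj3, e36, f56, e56, e39]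
  | n + 3, h1, _, _ => omega

/-- Soundness of the tree. -/
theorem sound {θ : K} (hθ : θ + φ θ = 1) (nd : Nd) : SoundAt K q nd := by
  induction nd with
  | triv => exact s_triv C
  | leaf i => exact s_leaf C
  | split k z n ihz ihn => exact s_split C ihz ihn
  | sqz sig k c ih => exact s_sqz C ih
  | cL r s k c ih => exact s_cL C ih
  | cS r s k c ih => exact s_cS C ih
  | cT r s k c ih => exact s_cT C hθ ih
  | cF r s k sig c ih => exact s_cF C ih
  | cN r s k c ih => exact s_cN C ih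
  | cK r r2 s k z0 c ih => exact s_cK C ih
  | weyl i c ih => exact s_weyl C ih

/-- Every involution in normal form is conjugate to a representative. -/
theorem tree_final {θ : K} (hθ : θ + φ θ = 1) {t : ℕ → K} (hG : Good q t) : Tgt q (uu t) :=
  sound C hθ tree0 Lr [] tree_ok t hG (fun r hr h => absurd hr h) (by simp) (by simp)

end Steps

end Cfsg.Agent.Lib.Twisted.E6Inv
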